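import Cfsg.Agent.E7AltSection65.Setup
import Cfsg.Agent.E7AltSection65.Lifts
import Cfsg.Agent.E7AltSection65.Kernel
import Cfsg.Agent.Chevalley.CentralizerFix
import Cfsg.Agent.S2653

/-!
No alternating section of degree fifteen in characteristic seven.
-/

set_option autoImplicit false

namespace CfsgLib.E7Alt65

open Cfsg.Lie CfsgLib.Chevalley
open scoped Matrix

local notation "S" => sysE7

variable {F : Type*} [Field F]

/-- The elements preserving the subspace spanned by the given coordinates. -/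
def Pres {d : ℕ} (e : Fin d → chevE7.Idx) : Subgroup (GL chevE7.Idx F) where
  carrier := {g | (∀ row, row ∉ Set.range e → ∀ b, (g : Matrix chevE7.Idx chevE7.Idx F) row (e b) = 0) ∧
    ∀ row, row ∉ Set.range e → ∀ b,
      ((g⁻¹ : GL chevE7.Idx F) : Matrix chevE7.Idx chevE7.Idx F) row (e b) = 0}
  one_mem' := by
    refine ⟨fun row hrow b => ?_, fun row hrow b => ?_⟩ <;>
      simp only [inv_one, Units.val_one] <;>
      exact Matrix.one_apply_ne fun h => hrow ⟨b, h.symm⟩
  inv_mem' {g} hg := ⟨hg.2, by simpa only [inv_inv] using hg.1⟩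
  mul_mem' {g h} hg hh := by
    have key : ∀ x y : Matrix chevE7.Idx chevE7.Idx F,
        (∀ row, row ∉ Set.range e → ∀ b, x row (e b) = 0) →
        (∀ row, row ∉ Set.range e → ∀ b, y row (e b) = 0) →
        ∀ row, row ∉ Set.range e → ∀ b, (x * y) row (e b) = 0 := by
      intro x y hx hy row hrow b
      rw [Matrix.mul_apply]
      refine Finset.sum_eq_zero fun c _ => ?_
      by_cases hc : c ∈ Set.range e
      · obtain ⟨a, rfl⟩ := hc
        rw [hx row hrow a, zero_mul]
      · rw [hy c hc b, mul_zero]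
    refine ⟨?_, ?_⟩
    · rw [Units.val_mul]
      exact key _ _ hg.1 hh.1
    · rw [mul_inv_rev, Units.val_mul]
      exact key _ _ hh.2 hg.2

theorem mulApply_pres {d : ℕ} {e : Fin d → chevE7.Idx} (he : Function.Injective e)
    (g h : GL chevE7.Idx F) (hh : h ∈ Pres e) (row : chevE7.Idx) (b : Fin d) :
    ((g * h : GL chevE7.Idx F) : Matrix chevE7.Idx chevE7.Idx F) row (e b) =
      ∑ a : Fin d, (g : Matrix chevE7.Idx chevE7.Idx F) row (e a) *
        (h : Matrix chevE7.Idx chevE7.Idx F) (e a) (e b) := by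
  classical
  rw [Units.val_mul, Matrix.mul_apply]
  refine (Finset.sum_subset (Finset.subset_univ (Finset.univ.image e)) fun c _ hc => ?_).symm.trans ?_
  · have hc' : c ∉ Set.range e := fun ⟨a, ha⟩ => hc (Finset.mem_image.mpr ⟨a, Finset.mem_univ _, ha⟩)
    rw [hh.1 c hc' b, mul_zero]
  · exact Finset.sum_image fun x _ y _ h' => he h'

/-- The restriction to the subspace. -/
noncomputable def res {d : ℕ} (e : Fin d → chevE7.Idx) (he : Function.Injective e) :
    ↥(Pres (F := F) e) →* GL (Fin d) F :=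
  MonoidHom.toHomUnits
    { toFun := fun g => (g.1 : Matrix chevE7.Idx chevE7.Idx F).submatrix e e
      map_one' := by
        simp only [OneMemClass.coe_one, Units.val_one]
        exact Matrix.submatrix_one e he
      map_mul' := fun g h => by
        ext a b
        simp only [Matrix.submatrix_apply, Subgroup.coe_mul, Matrix.mul_apply]
        exact mulApply_pres he g.1 h.1 h.2 (e a) b }

theorem res_apply {d : ℕ} {e : Fin d → chevE7.Idx} (he : Function.Injective e)
    (g : ↥(Pres (F := F) e)) (a b : Fin d) :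
    (res e he g : Matrix (Fin d) (Fin d) F) a b =
      (g.1 : Matrix chevE7.Idx chevE7.Idx F) (e a) (e b) := rfl

theorem diagonal_le_pres {d : ℕ} (e : Fin d → chevE7.Idx) :
    chevE7.diagonalSubgroup F ≤ Pres e := by
  have key : ∀ t ∈ chevE7.diagonalSubgroup F, ∀ row, row ∉ Set.range e → ∀ b,
      (t : Matrix chevE7.Idx chevE7.Idx F) row (e b) = 0 := by
    intro t ht row hrow b
    obtain ⟨c, rfl⟩ := (Sys.diagonal_eq S (F := F)) ▸ ht
    exact Sys.tor_diag S F c fun h => hrow ⟨b, h.symm⟩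
  exact fun t ht => ⟨key t ht, key _ (inv_mem ht)⟩

/-- Check: the root element maps the coordinates into their span. -/
def chkPres (Z B : List ℕ) : Bool :=
  Z.all fun r => B.all fun s => (colTerms chevE7 r (7 + s)).all fun q => (B.map (7 + ·)).contains q.1

theorem xG_mem_pres {Z B : List ℕ} (h : chkPres Z B = true) (hB : ∀ s ∈ B, s < chevE7.nroots)
    {d : ℕ} {e : Fin d → chevE7.Idx} (he : ∀ b, ∃ s : Fin chevE7.nroots, (s : ℕ) ∈ B ∧ e b = Sum.inr s)
    (hBe : ∀ s : Fin chevE7.nroots, (s : ℕ) ∈ B → Sum.inr s ∈ Set.range e)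
    {r : ℕ} (hr : r ∈ Z) (hrl : r < chevE7.nroots) (t : F) : Sys.xG S F r t ∈ Pres e := by
  simp only [chkPres, List.all_eq_true, List.contains_iff_mem, List.mem_map] at h
  have key : ∀ t : F, ∀ row, row ∉ Set.range e → ∀ b,
      (Sys.xG S F r t : Matrix chevE7.Idx chevE7.Idx F) row (e b) = 0 := by
    intro t row hrow b
    obtain ⟨s, hs, hes⟩ := he b
    have e1 : (Sys.xG S F r t : Matrix chevE7.Idx chevE7.Idx F) row (e b) =
        (chevE7.x F r t *ᵥ bv chevE7 F (chevE7.rank + s)) row := by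
      rw [hes, bv_inr, Matrix.mulVec_single, Sys.xG_val]
      simp
    rw [e1, x_bv (Sys.wf S) hrl (by omega) t, list_sum_apply]
    refine List.sum_eq_zero fun x hx => ?_
    simp only [List.mem_map] at hx
    obtain ⟨_, ⟨q, hq, rfl⟩, rfl⟩ := hx
    obtain ⟨u, hu, hu'⟩ := h r hr s hs q hq
    rw [Pi.smul_apply, ← hu']
    have hrow' : bv chevE7 F (7 + u) row = 0 := by
      refine bv_apply_ne ?_
      intro henc
      rcases row with i | v
      · have := i.isLt
        simp only [enc] at henc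
        have h7 : chevE7.rank = 7 := rfl
        omega
      · simp only [enc] at henc
        have h7 : chevE7.rank = 7 := rfl
        have : (v : ℕ) = u := by omega
        exact hrow (hBe v (this ▸ hu))
    rw [hrow', smul_zero]
  exact ⟨key t, by rw [Sys.xG_inv]; exact key (-t)⟩

/-- The root with the given position in the block. -/
def r8 (b : Fin 8) : Fin chevE7.nroots :=
  ⟨block8.getD b 0, (by decide +kernel : ∀ b : Fin 8, block8.getD b 0 < chevE7.nroots) b⟩

/-- The coordinates of the block. -/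
def ix8 (b : Fin 8) : chevE7.Idx := Sum.inr (r8 b)

theorem r8_mem : ∀ b : Fin 8, (r8 b : ℕ) ∈ block8 := by decide +kernel

theorem mem_block8 : ∀ s : Fin 126, (s : ℕ) ∈ block8 → ∃ b : Fin 8, block8.getD b 0 = s := by
  decide +kernel

theorem ix8_range {s : Fin chevE7.nroots} (hs : (s : ℕ) ∈ block8) :
    Sum.inr s ∈ Set.range ix8 := by
  obtain ⟨b, hb⟩ := mem_block8 s hs
  exact ⟨b, congrArg Sum.inr (Fin.ext hb)⟩

theorem ix8_injective : Function.Injective ix8 :=
  Sum.inr_injective.comp (by decide +kernel : Function.Injective r8)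

theorem coef_inj : ∀ r t : Fin 126, (∀ m : Fin 7, coef r m = coef t m) → r = t := by decide +kernel

/-- The elements of the stabiliser of the base function permute the block. -/
theorem block8_perm {f : Fin chevE7.nroots → ZMod 5} (hf : IsLin f) (hv : vals f = a5)
    {L : List (Fin chevE7.rank)} (h : ∀ s, f (Sys.wperm S L s) = f s) {s : Fin chevE7.nroots}
    (hs : (s : ℕ) ∈ block8) : (Sys.wperm S L s : ℕ) ∈ block8 := by
  have hσ := mem_maps hf L 1 fun s => by rw [h, Nat.cast_one, one_mul]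
  rw [hv] at hσ
  have hm := List.all_eq_true.mp (List.all_eq_true.mp stab5_block _ hσ) _ hs
  simp only [imgMem, List.any_eq_true, List.all_eq_true, beq_iff_eq, List.mem_range] at hm
  obtain ⟨t, ht, hcoord⟩ := hm
  have e : Sys.wperm S L s = (⟨t, block8_lt t ht⟩ : Fin 126) := by
    refine coef_inj _ _ fun m => ?_
    have h1 := hcoord m m.isLt
    have h2 := Sys.vec_wperm S L s m m.isLt
    rw [vec_eq] at h2
    have h3 : (∑ l : Fin 7, ((coef s l : ℤ) - 4) * ((coef ((imgW L).getD l 0) m : ℤ) - 4)) =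
        (coef (Sys.wperm S L s) m : ℤ) - 4 := by
      rw [h2]
      exact Finset.sum_congr rfl fun l _ => by
        rw [imgW_getD, ← vec_eq, ← vec_eq]
    have hb : ∀ (r : Fin 126) (m : Fin 7), coef r m < 16 := fun r m => Nat.mod_lt _ (by norm_num)
    simp only [imgCoord, map_range_seven, List.sum_cons, List.sum_nil, add_zero] at h1
    rw [Fin.sum_univ_seven] at h3
    simp only [Fin.isValue, Fin.val_zero, Fin.val_one, Fin.val_two,
      show ((3 : Fin 7) : ℕ) = 3 from rfl, show ((4 : Fin 7) : ℕ) = 4 from rfl,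
      show ((5 : Fin 7) : ℕ) = 5 from rfl, show ((6 : Fin 7) : ℕ) = 6 from rfl] at h3
    ring_nf at h1 h3
    show coef (Sys.wperm S L s : ℕ) m = coef t m
    omega
  rw [e]
  exact ht

variable [Fintype F] {ζ : Fˣ} {t : GL chevE7.Idx F} {f : Fin chevE7.nroots → ZMod 5}

/-- The centraliser of the torus element preserves the block. -/
theorem centralizer_le_pres (hζ : orderOf ζ = 5) (ht : IsLog ζ t f) (hv : vals f = a5)
    {g : GL chevE7.Idx F} (hg : g ∈ chevE7.group F) (hc : g * t = t * g) : g ∈ Pres ix8 := by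
  haveI : Fact (Nat.Prime 5) := ⟨by norm_num⟩
  obtain ⟨hl, c, rfl, hcv⟩ := ht
  refine CfsgLib.E6Alt65.centralizer_tor S hg hc (diagonal_le_pres ix8) (fun r _ hr h a => ?_)
    fun n hn => ?_
  · refine xG_mem_pres (Z := (List.range 126).filter fun r => vmod 5 a5 r == 0) (B := block8)
      block8_chk (fun s hs => block8_lt s hs) (fun b => ⟨r8 b, r8_mem b, rfl⟩)
      (fun s hs => ix8_range hs) (List.mem_filter.mpr ⟨List.mem_range.mpr hr, beq_iff_eq.mpr ?_⟩) hr a
    have h0 : f ⟨r, hr⟩ = 0 := zeta_inj hζ (by rw [← hcv, h, ZMod.val_zero, pow_zero])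
    rw [← hv, show r = ((⟨r, hr⟩ : Fin chevE7.nroots) : ℕ) from rfl, vmod_vals hl, h0, ZMod.val_zero]
  · have key : ∀ n : ↥(chevE7.monomialSubgroup F), (n : GL chevE7.Idx F) * tor chevE7 F c =
        tor chevE7 F c * (n : GL chevE7.Idx F) → ∀ row, row ∉ Set.range ix8 → ∀ b,
          ((n : GL chevE7.Idx F) : Matrix chevE7.Idx chevE7.Idx F) row (ix8 b) = 0 := by
      intro n hn row hrow b
      refine monomial_entry n (r8 b) fun e => hrow ?_
      obtain ⟨L, hL⟩ := Sys.exists_wperm S F n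
      have hlog : IsLog ζ (tor chevE7 F c) f := ⟨hl, c, rfl, hcv⟩
      have hp := block8_perm hl hv (L := L) (fun s => by
        rw [← hL]
        exact hlog.conj hζ hlog n (by rw [hn, mul_inv_cancel_right]) s) (r8_mem b)
      rw [e, hL]
      exact ix8_range hp
    refine ⟨key n hn, ?_⟩
    have h := key n⁻¹ (Commute.inv_left (show Commute (n : GL chevE7.Idx F) (tor chevE7 F c) from hn)).eq
    simpa only [Subgroup.coe_inv] using h

/-- A function that vanishes on the block is zero or has not twenty-six zeros. -/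
theorem vanish_block {g : Fin chevE7.nroots → ZMod 5} (hg : IsLin g)
    (h : ∀ b, g (r8 b) = 0) (hne : g ≠ 0) : zc g ≠ 26 := by
  haveI : Fact (Nat.Prime 5) := ⟨by norm_num⟩
  have hpos : ∀ i : Fin 5, ∃ b : Fin 8, block8.getD b 0 = [32, 31, 30, 29, 26].getD (i : ℕ) 0 := by
    decide
  have hrow : ∀ i : Fin 5, ∑ m : Fin 7,
      (((((if ((([([0] : List ℕ), [0, 2], [0, 2, 3], [0, 2, 3, 4], [0, 1, 2, 3]] : List (List ℕ)).getD
        (i : ℕ) []).contains (m : ℕ)) then 3 else 4 : ℕ) : ℤ) - 4 : ℤ)) : ZMod 5) * g (sf m) = 0 := by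
    intro i
    obtain ⟨b, hb⟩ := hpos i
    rw [← h b, hg (r8 b)]
    refine Finset.sum_congr rfl fun m _ => ?_
    rw [vec_eq, show ((r8 b : Fin chevE7.nroots) : ℕ) = _ from hb, block8_rows i m]
  have e0 := hrow 0
  have e1 := hrow 1
  have e2 := hrow 2
  have e3 := hrow 3
  have e4 := hrow 4
  simp only [Fin.sum_univ_seven, Fin.isValue, Fin.val_zero, Fin.val_one, Fin.val_two,
    show ((3 : Fin 5) : ℕ) = 3 from rfl, show ((4 : Fin 5) : ℕ) = 4 from rfl,
    show ((3 : Fin 7) : ℕ) = 3 from rfl, show ((4 : Fin 7) : ℕ) = 4 from rfl,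
    show ((5 : Fin 7) : ℕ) = 5 from rfl, show ((6 : Fin 7) : ℕ) = 6 from rfl,
    List.getD_cons_zero, List.getD_cons_succ, List.contains_eq_mem, List.mem_cons,
    List.not_mem_nil] at e0 e1 e2 e3 e4
  norm_num at e0 e1 e2 e3 e4
  have b0 : g (sf 0) = 0 := by linear_combination e0
  have b2 : g (sf 2) = 0 := by linear_combination -e1 - b0
  have b3 : g (sf 3) = 0 := by linear_combination -e2 - b0 - b2
  have b4 : g (sf 4) = 0 := by linear_combination -e3 - b0 - b2 - b3
  have b1 : g (sf 1) = 0 := by linear_combination -e4 - b0 - b2 - b3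
  set n := 5 * (g (sf 5)).val + (g (sf 6)).val with hn
  have h5 := ZMod.val_lt (g (sf 5))
  have h6 := ZMod.val_lt (g (sf 6))
  have hv : vals g = [0, 0, 0, 0, 0, n / 5, n % 5] := by
    rw [show n / 5 = (g (sf 5)).val by omega, show n % 5 = (g (sf 6)).val by omega]
    simp [vals, b0, b1, b2, b3, b4]
  have hk := List.all_eq_true.mp block8_ker n (List.mem_range.mpr (by omega))
  simp only [Bool.or_eq_true, beq_iff_eq, Bool.not_eq_true', beq_eq_false_iff_ne, ← hv] at hk
  rcases hk with hk | hk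
  · exact absurd (eq_zero_of_vals hg (by rw [hv, hk])) hne
  · rw [zc_vals hg]
    exact hk

/-- No minimal cover of the alternating group of degree fifteen lies in the group. -/
theorem no_fifteen_min [CharP F 7] (hq : 25 ∣ Fintype.card F - 1) {H : Type*} [Group H] [Finite H]
    (i : H →* GL chevE7.Idx F) (hi : Function.Injective i) (hig : ∀ h, i h ∈ chevE7.group F)
    (π : H →* ↥(alternatingGroup (Fin 15))) (hπ : Function.Surjective π)
    (hmin : ∀ U : Subgroup H, U.map π = ⊤ → U = ⊤) : False := by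
  classical
  haveI : Fact (Nat.Prime 5) := ⟨by norm_num⟩
  haveI : Fact (Nat.Prime 7) := ⟨by norm_num⟩
  obtain ⟨ζ, hζ⟩ := exists_prime_orderOf_dvd_card (G := Fˣ) 5
    (by rw [Fintype.card_units]; exact dvd_trans (by norm_num) hq)
  have hsq : ¬ 5 ^ 2 ∣ 2903040 := by norm_num
  have hq' : 5 ^ 2 ∣ Fintype.card F - 1 := by simpa using hq
  have hK : ¬ 5 ∣ Nat.card ↥π.ker := kernel_prime_scale S (by rw [natCard_weyl]; exact hsq)
    (index_monomial (by norm_num) hq' hsq) (card_torsion hζ) (by norm_num) i hi hig π hπ hmin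
    (fun d hd => by
      rw [nat_card_alternatingGroup, Nat.card_eq_fintype_card, Fintype.card_fin]
      have hd8 : d ≤ 8 := hd
      interval_cases d <;> decide +kernel)
    ![a15, b15, c15] not_five_dvd_index pow15 commute15 exists_scale15
  obtain ⟨ha5, hb5, -, hab, -, -, hane, hbne, -⟩ := a15_b15_facts
  obtain ⟨z, z', hza, hzb, hz, hz', hc⟩ := exists_pair π hπ hK ha5 hb5 hab
  have pz : π z ≠ 1 := by rw [hza]; exact hane
  have pz' : π z' ≠ 1 := by rw [hzb]; exact hbne
  have hsq2 : ∀ {s : H}, s ^ 5 = 1 → π s ≠ 1 → (s ^ 2) ^ 5 = 1 ∧ π (s ^ 2) ≠ 1 := by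
    intro s hs hne
    refine ⟨by rw [← pow_mul, mul_comm, pow_mul, hs, one_pow], fun h => ?_⟩
    rw [map_pow] at h
    have ho : orderOf (π s) = 5 := orderOf_eq_prime (by rw [← map_pow, hs, map_one]) hne
    have := ho ▸ orderOf_dvd_of_pow_eq_one h
    norm_num at this
  obtain ⟨q2, hq2, hq2'⟩ := exists_y15
  obtain ⟨y2, -, hy2, hy2'⟩ := exists_lift_pair π hπ hK hz hz' (hsq2 hz pz).1 (hsq2 hz' pz').1 hc
    (hc.pow_pow 2 2) (hsq2 hz pz).2 (hsq2 hz' pz').2 q2 (by rw [map_pow, hza, hq2])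
    (by rw [map_pow, hzb, hq2'])
  have hind : ∀ j : ℕ, z' ≠ z ^ j := by
    intro j e
    have h := congrArg π e
    rw [map_pow, hza, hzb, pow_eq_pow_mod j ha5] at h
    have := (a15_b15_pow ⟨j % 5, Nat.mod_lt _ (by norm_num)⟩ 0 0).2.1
    simp only [Fin.val_zero, pow_zero, mul_one, ← h] at this
    revert this
    decide +kernel
  obtain ⟨κ, hκ, hκg, hT, hT'⟩ := exists_toral_pair (ℓ := 5) (by norm_num) hsq hq' hζ 2
    (fun f hf hne L L' h2 hL hL5 => fix5 hf hne (by simpa using h2) hL hL5) i hi hig hz hz' hc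
    (fun e => pz (by rw [e, map_one])) hind hy2 hy2'
  have hcj : ∀ (κ : H →* GL chevE7.Idx F) {x s t : H}, x * s * x⁻¹ = t →
      κ x * κ s * (κ x)⁻¹ = κ t := fun κ _ _ _ h => by
    rw [← map_inv, ← map_mul, ← map_mul, h]
  obtain ⟨a, hla⟩ := exists_log hζ hT (by rw [← map_pow, hz, map_one])
  obtain ⟨La, hLa⟩ := exists_scale hζ (hκg y2) hla (k := 2) (by rw [hcj κ hy2, map_pow])
  obtain ⟨M, hM⟩ := orbit5 hla.1 (ne_zero_of_isLog hκ (fun e => pz (by rw [e, map_one])) hla)
    (L := La) (by simpa using hLa)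
  -- standard position
  let nM : GL chevE7.Idx F := ((Sys.wN S F M : ↥(chevE7.monomialSubgroup F)) : GL chevE7.Idx F)
  let μ : H →* GL chevE7.Idx F := (MulAut.conj nM⁻¹).toMonoidHom.comp κ
  have hμe : ∀ h, μ h = nM⁻¹ * κ h * nM := fun h => by simp [μ]
  have hnM : nM ∈ chevE7.monomialSubgroup F := (Sys.wN S F M).2
  have hμ : Function.Injective μ := (MulAut.conj nM⁻¹).injective.comp hκ
  have hμg : ∀ h, μ h ∈ chevE7.group F := fun h => by
    rw [hμe]
    exact mul_mem (mul_mem (inv_mem (Sys.monomial_le_group S F hnM)) (hκg h))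
      (Sys.monomial_le_group S F hnM)
  have hlA : IsLog ζ (μ z) (fun s => a (Sys.wperm S M s)) := by
    rw [hμe]
    exact hla.exists_conj hζ _ (Sys.perm_wN S F M)
  have hμT' : μ z' ∈ chevE7.diagonalSubgroup F := by
    rw [hμe]
    have := (Subgroup.mem_normalizer_iff.mp
      (Sys.monomial_le_normalizer S F (inv_mem hnM)) _).mp hT'
    simpa using this
  obtain ⟨b, hlb⟩ := exists_log hζ hμT' (by rw [← map_pow, hz', map_one])
  obtain ⟨Lb, hLb⟩ := exists_scale hζ (hμg y2) hlb (k := 2) (by rw [hcj μ hy2', map_pow])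
  have hb26 := zc5 hlb.1 (ne_zero_of_isLog hμ (fun e => pz' (by rw [e, map_one])) hlb) (L := Lb)
    (by simpa using hLb)
  -- the centraliser of the first element
  set L₀ : Subgroup H := Subgroup.centralizer ({z} : Set H) ⊓ ι10.range.comap π with hL₀
  have hPres : ∀ g : ↥L₀, μ g ∈ Pres ix8 := fun g => by
    refine centralizer_le_pres hζ hlA hM (hμg g) ?_
    rw [← map_mul, ← map_mul, Subgroup.mem_centralizer_singleton_iff.mp (Subgroup.mem_inf.mp g.2).1]
  let ρ : ↥L₀ →* GL (Fin 8) F := (res ix8 ix8_injective).comp ((μ.comp L₀.subtype).codRestrict _ hPres)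
  let π₀ : ↥L₀ →* ↥(alternatingGroup (Fin 10)) := (MonoidHom.ofInjective ι10_injective).symm.toMonoidHom.comp
    ((π.comp L₀.subtype).codRestrict ι10.range fun g => (Subgroup.mem_inf.mp g.2).2)
  have hπ₀ι : ∀ g : ↥L₀, ι10 (π₀ g) = π g := fun g =>
    congrArg Subtype.val ((MonoidHom.ofInjective ι10_injective).apply_symm_apply
      ⟨π g, (Subgroup.mem_inf.mp g.2).2⟩)
  have hπ₀ : Function.Surjective π₀ := fun q => by
    obtain ⟨y, hy, hyz⟩ := exists_central_lift π hπ hK hz pz (q := ι10 q)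
      (by rw [hza]; exact ι10_commute q)
    refine ⟨⟨y, Subgroup.mem_inf.mpr ⟨Subgroup.mem_centralizer_singleton_iff.mpr hyz.eq, ⟨q, hy.symm⟩⟩⟩,
      ι10_injective ?_⟩
    rw [hπ₀ι]
    exact hy
  -- its kernel on the block covers the second element
  have hz'L : z' ∈ L₀ := Subgroup.mem_inf.mpr
    ⟨Subgroup.mem_centralizer_singleton_iff.mpr hc.symm.eq, ⟨b10, by rw [ι10_b10, hzb]⟩⟩
  have hK₀ : ¬ 5 ∣ Nat.card ↥π₀.ker := fun h => hK (h.trans (Subgroup.card_dvd_of_injective
    ((L₀.subtype.comp π₀.ker.subtype).codRestrict π.ker fun k => by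
      rw [MonoidHom.mem_ker]
      show π ((k : ↥L₀) : H) = 1
      rw [← hπ₀ι, MonoidHom.mem_ker.mp k.2, map_one])
    fun k j e => Subtype.ext (Subtype.ext (congrArg (fun x : ↥π.ker => (x : H)) e))))
  have htop : ρ.ker.map π₀ = ⊤ := by
    haveI : IsSimpleGroup ↥(alternatingGroup (Fin 10)) := alternatingGroup.isSimpleGroup (by simp)
    haveI : (ρ.ker.map π₀).Normal := Subgroup.Normal.map inferInstance π₀ hπ₀
    refine (IsSimpleGroup.eq_bot_or_eq_top_of_normal _ ‹_›).resolve_left fun hbot => ?_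
    have hle : ρ.ker ≤ π₀.ker := (Subgroup.map_eq_bot_iff _).mp hbot
    let ψ : ↥ρ.range →* ↥(alternatingGroup (Fin 10)) :=
      (ρ.rangeRestrict).liftOfSurjective ρ.rangeRestrict_surjective
        ⟨π₀, by rw [MonoidHom.ker_rangeRestrict]; exact hle⟩
    have hψ : Function.Surjective ψ := fun q => by
      obtain ⟨g, rfl⟩ := hπ₀ q
      exact ⟨ρ.rangeRestrict g, MonoidHom.liftOfRightInverse_comp_apply _ _ _ _ g⟩
    have h := Cfsg.Agent.S2653.result 7 8 10 ρ.range ψ.ker
      ⟨QuotientGroup.quotientKerEquivOfSurjective ψ hψ⟩ (by norm_num)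
    norm_num at h
  have hzker : (⟨z', hz'L⟩ : ↥L₀) ∈ ρ.ker := by
    refine mem_normal_of_conj π₀ hK₀ (Subtype.ext hz') ?_ (htop ▸ Subgroup.mem_top _)
    intro h
    refine pz' ?_
    rw [show z' = ((⟨z', hz'L⟩ : ↥L₀) : H) from rfl, ← hπ₀ι, h, map_one]
  refine vanish_block hlb.1 (fun j => ?_) (ne_zero_of_isLog hμ (fun e => pz' (by rw [e, map_one])) hlb) hb26
  refine zeta_inj hζ ?_
  rw [ZMod.val_zero, pow_zero]
  have h := congrArg (fun g : GL (Fin 8) F => (g : Matrix (Fin 8) (Fin 8) F) j j) hzker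
  simp only [Units.val_one, Matrix.one_apply_eq] at h
  exact Units.ext ((hlb.entry (r8 j)).symm.trans h)

end CfsgLib.E7Alt65
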