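import Cfsg.Agent.E7AltSection65.Seven
import Cfsg.Agent.E7AltSection65.Five

/-!
The bound on the degree of an alternating section of the groups of type E7.
-/

set_option autoImplicit false

namespace CfsgLib.E7Alt65

open Cfsg.Lie CfsgLib.Chevalley

/-- A section gives a minimal cover inside the group over a larger field. -/
theorem exists_minimal {F : Type*} [Field F] [Fintype F] (p : ℕ) [Fact p.Prime] [CharP F p] {n m : ℕ}
    (hm : Nat.Coprime p m) {H : Type*} [Group H] (i : H →* ↥(chevE7.group F))
    (hi : Function.Injective i) (π : H →* ↥(alternatingGroup (Fin n))) (hπ : Function.Surjective π) :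
    ∃ (E : Type) (_ : Field E) (_ : Fintype E) (_ : CharP E p) (U : Subgroup H)
      (j : ↥U →* GL chevE7.Idx E), m ∣ Fintype.card E - 1 ∧ Finite ↥U ∧ Function.Injective j ∧
        (∀ h, j h ∈ chevE7.group E) ∧ Function.Surjective (π.comp U.subtype) ∧
        ∀ V : Subgroup ↥U, V.map (π.comp U.subtype) = ⊤ → V = ⊤ := by
  classical
  have : Finite H := Finite.of_injective i hi
  obtain ⟨U, hU, hUmin⟩ := (Set.toFinite {U : Subgroup H | U.map π = ⊤}).exists_minimal
    ⟨⊤, Subgroup.map_top_of_surjective π hπ⟩
  obtain ⟨E, _, _, _, f, hf, hq⟩ := exists_baseChange (F := F) p hm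
  refine ⟨E, inferInstance, inferInstance, inferInstance, U,
    (chevE7.group E).subtype.comp (f.comp (i.comp U.subtype)), hq, inferInstance,
    Subtype.val_injective.comp (hf.comp (hi.comp U.subtype_injective)),
    fun h => Subtype.coe_prop _, ?_, fun V hV => ?_⟩
  · rw [← MonoidHom.range_eq_top, MonoidHom.range_comp, Subgroup.range_subtype]
    exact hU
  · have hVU : V.map U.subtype = U := le_antisymm (Subgroup.map_subtype_le V)
      (hUmin (show (V.map U.subtype).map π = ⊤ by rwa [Subgroup.map_map])
        (Subgroup.map_subtype_le V))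
    refine Subgroup.map_injective U.subtype_injective ?_
    rw [hVU, ← MonoidHom.range_eq_map, Subgroup.range_subtype]

/-- A larger alternating section contains the smaller ones. -/
theorem exists_section_le {n r : ℕ} (h : n ≤ r) {H : Type*} [Group H]
    (π : H →* ↥(alternatingGroup (Fin r))) (hπ : Function.Surjective π) :
    ∃ (U : Subgroup H) (π' : ↥U →* ↥(alternatingGroup (Fin n))), Function.Surjective π' := by
  obtain ⟨φ, hφ⟩ := CfsgLib.F4AltSection.exists_altHom (n := n) (r := r) h
  refine ⟨φ.range.comap π, (MonoidHom.ofInjective hφ).symm.toMonoidHom.comp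
    ((π.comp (φ.range.comap π).subtype).codRestrict φ.range fun u => u.2), fun q => ?_⟩
  obtain ⟨x, hx⟩ := hπ (φ q)
  refine ⟨⟨x, q, hx.symm⟩, hφ ?_⟩
  exact (congrArg Subtype.val ((MonoidHom.ofInjective hφ).apply_symm_apply
    ⟨π x, q, hx.symm⟩)).trans hx

/-- The degree bound. -/
theorem section_bound {F : Type*} [Field F] [Fintype F] (p : ℕ) [Fact p.Prime] [CharP F p] {r : ℕ}
    {H : Type*} [Group H] (i : H →* ↥(chevE7.group F)) (hi : Function.Injective i)
    (π : H →* ↥(alternatingGroup (Fin r))) (hπ : Function.Surjective π) :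
    r ≤ 13 + (if p = 7 then 1 else 0) := by
  have hp : p.Prime := Fact.out
  by_contra hr
  split_ifs at hr with h7
  · subst h7
    obtain ⟨U, π', hπ'⟩ := exists_section_le (n := 15) (r := r) (by omega) π hπ
    obtain ⟨E, _, _, _, V, j, hq, _, hj, hjg, hsur, hmin⟩ := exists_minimal (F := F) 7 (m := 25)
      (by norm_num) (i.comp U.subtype) (hi.comp U.subtype_injective) π' hπ'
    exact no_fifteen_min hq j hj hjg _ hsur hmin
  · obtain ⟨U, π', hπ'⟩ := exists_section_le (n := 14) (r := r) (by omega) π hπ
    obtain ⟨E, _, _, _, V, j, hq, _, hj, hjg, hsur, hmin⟩ := exists_minimal (F := F) p (m := 49)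
      ((show (49 : ℕ) = 7 ^ 2 by norm_num) ▸
        ((Nat.coprime_primes hp (by norm_num)).mpr h7).pow_right 2)
      (i.comp U.subtype) (hi.comp U.subtype_injective) π' hπ'
    exact no_fourteen_min hq j hj hjg _ hsur hmin

end CfsgLib.E7Alt65
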